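import Mathlib
import Cfsg.Agent.Lib.Helper51.TIH.Defs

/-!
# Project TIH (S4118), package [ACT]

The action of `H` on `O`: all nonidentity elements of `H` have the same centralizer in `O`, and
`H` does not centralize `O`.
-/

set_option autoImplicit false

namespace Cfsg.Agent.Lib.Helper25.TIH

open Cfsg.Agent.Lib.Helper51.TIH

universe u

theorem pkgAct : PkgAct.{u} := by
  intro G _ _ H O hTI hHn hOn hcop hON
  refine ⟨?_, ?_⟩
  · intro h hh hne x hx hcomm h' hh'
    have hxN : x ∈ Subgroup.normalizer (H : Set G) := by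
      by_contra hxn
      refine hne (hTI x hxn h hh ?_)
      rw [hcomm]
      simpa using hh
    have h1 : x * h' * x⁻¹ ∈ H := (Subgroup.mem_normalizer_iff.mp hxN h').mp hh'
    have h2 : x * h' * x⁻¹ * h'⁻¹ ∈ H := H.mul_mem h1 (H.inv_mem hh')
    have h3 : x * h' * x⁻¹ * h'⁻¹ ∈ O := by
      have : x * (h' * x⁻¹ * h'⁻¹) ∈ O := O.mul_mem hx (hOn.conj_mem _ (O.inv_mem hx) _)
      simpa [mul_assoc] using this
    have h4 : O ⊓ H = ⊥ := (Subgroup.disjoint_of_coprime_natCard hcop).eq_bot
    have h5 : x * h' * x⁻¹ * h'⁻¹ = 1 := by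
      have h6 : x * h' * x⁻¹ * h'⁻¹ ∈ O ⊓ H := ⟨h3, h2⟩
      rw [h4] at h6
      exact Subgroup.mem_bot.mp h6
    have h7 : x * h' * x⁻¹ = h' := by
      have := congrArg (· * h') h5
      simpa using this
    have h8 := congrArg (· * x) h7
    simpa using h8
  · by_contra hcon
    push Not at hcon
    apply hHn
    have hOle : O ≤ Subgroup.normalizer (H : Set G) := by
      intro x hx
      rw [Subgroup.mem_normalizer_iff]
      intro h
      constructor
      · intro hh
        have := hcon h hh x hx
        rw [this]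
        simpa using hh
      · intro hh
        have h1 := hcon _ hh x hx
        have h2 : x * h = x * h * x⁻¹ * x := by simp
        have h3 : x * h = x * (x * h * x⁻¹) := h2.trans h1.symm
        have h4 : h = x * h * x⁻¹ := mul_left_cancel h3
        rw [h4]
        exact hh
    have hN : Subgroup.normalizer (H : Set G) = ⊤ := by
      rw [← hON]
      exact (sup_eq_right.mpr hOle).symm
    exact Subgroup.normalizer_eq_top_iff.mp hN

end Cfsg.Agent.Lib.Helper25.TIH
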