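import Mathlib
import Cfsg.Agent.Lib.Helper51.TIH.Defs

/-!
# Project TIH (S4118), package [ON]

`G = O N_G(H)`: Frattini argument with a Sylow subgroup of `F` inside `H`.
-/

set_option autoImplicit false

namespace Cfsg.Agent.Lib.Helper25.TIH

open Cfsg.Agent.Lib.Helper51.TIH

universe u

/-- `|H| * |K : H| = |K|` for `H ≤ K`. -/
theorem card_mul_relIndex_of_le {G : Type u} [Group G] {H K : Subgroup G} (h : H ≤ K) :
    Nat.card H * H.relIndex K = Nat.card K := by
  have h1 := Subgroup.card_mul_index (H.subgroupOf K)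
  rw [Nat.card_congr (Subgroup.subgroupOfEquivOfLe h).toEquiv] at h1
  exact h1

/-- for `F` normal: `|F : H ⊓ F| = |H F : H|`. -/
theorem relIndex_eq_relIndex_sup {G : Type u} [Group G] [Finite G] (H F : Subgroup G)
    [F.Normal] : H.relIndex F = H.relIndex (H ⊔ F) := by
  have e1 : F.relIndex (H ⊔ F) = F.relIndex H := Subgroup.relIndex_sup_right H F
  have e2 := card_mul_relIndex_of_le (le_sup_right : F ≤ H ⊔ F)
  have e5 := card_mul_relIndex_of_le (le_sup_left : H ≤ H ⊔ F)
  have e3 := card_mul_relIndex_of_le (inf_le_left : H ⊓ F ≤ H)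
  have e4 := card_mul_relIndex_of_le (inf_le_right : H ⊓ F ≤ F)
  rw [Subgroup.inf_relIndex_left] at e3
  rw [Subgroup.inf_relIndex_right] at e4
  rw [e1] at e2
  have hpos : 0 < Nat.card H := Nat.card_pos
  have key : Nat.card H * H.relIndex (H ⊔ F) = Nat.card H * H.relIndex F := by
    rw [e5, ← e2, ← e4, ← e3]
    ring
  exact (Nat.eq_of_mul_eq_mul_left hpos key).symm

/-- for `F` normal: `|F : H ⊓ F|` divides `|G : H|`. -/
theorem relIndex_dvd_index_of_normal_right {G : Type u} [Group G] [Finite G] (H F : Subgroup G)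
    [F.Normal] : H.relIndex F ∣ H.index := by
  rw [relIndex_eq_relIndex_sup]
  exact Subgroup.relIndex_dvd_index_of_le le_sup_left

theorem pkgON : PkgON.{u} := by
  intro G _ _ H O hTI hHall hOn hcop hF
  obtain ⟨F, hFn, hOF, hne, hFq⟩ := hF
  haveI := hFn
  -- a prime dividing `|F : O|`
  have hrel : O.relIndex F ≠ 1 := by
    intro h1
    exact hne (le_antisymm hOF (Subgroup.relIndex_eq_one.mp h1))
  obtain ⟨q, hq, hqd⟩ := Nat.exists_prime_and_dvd hrel
  haveI : Fact q.Prime := ⟨hq⟩
  have hqH : q ∣ Nat.card H := hFq q hq hqd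
  have hdvd : H.relIndex F ∣ H.index := relIndex_dvd_index_of_normal_right H F
  have hcopF : (Nat.card H).Coprime (H.relIndex F) := Nat.Coprime.coprime_dvd_right hdvd hHall
  have hqn : ¬ q ∣ H.relIndex F := by
    intro hd
    have := Nat.Coprime.eq_one_of_dvd ((Nat.Coprime.coprime_dvd_left hqH hcopF).coprime_dvd_right hd)
      dvd_rfl
    exact hq.one_lt.ne' this
  -- `F = O (H ⊓ F)`
  have hFle : F ≤ O ⊔ (H ⊓ F) := by
    rw [← Subgroup.relIndex_eq_one]
    by_contra h1
    obtain ⟨r, hr, hrd⟩ := Nat.exists_prime_and_dvd h1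
    have hr1 : r ∣ O.relIndex F := hrd.trans (Subgroup.relIndex_dvd_of_le_left F le_sup_left)
    have hr2 : r ∣ H.relIndex F := by
      have := hrd.trans (Subgroup.relIndex_dvd_of_le_left F (le_sup_right : H ⊓ F ≤ O ⊔ (H ⊓ F)))
      rwa [Subgroup.inf_relIndex_right] at this
    have hrH : r ∣ Nat.card H := hFq r hr hr1
    have := Nat.Coprime.eq_one_of_dvd
      ((Nat.Coprime.coprime_dvd_left hrH hcopF).coprime_dvd_right hr2) dvd_rfl
    exact hr.one_lt.ne' this
  -- a Sylow `q`-subgroup of `F` inside `H`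
  let K1 : Subgroup F := H.subgroupOf F
  obtain ⟨S⟩ : Nonempty (Sylow q K1) := inferInstance
  have hS' : IsPGroup q ((S : Subgroup K1).map K1.subtype) := S.isPGroup'.map _
  have hidx : ¬ q ∣ ((S : Subgroup K1).map K1.subtype).index := by
    rw [Subgroup.index_map_subtype]
    intro hd
    rcases (Nat.Prime.dvd_mul hq).mp hd with h | h
    · exact S.not_dvd_index h
    · exact hqn h
  let P : Sylow q F := hS'.toSylow hidx
  have hPcoe : (P : Subgroup F) = (S : Subgroup K1).map K1.subtype := IsPGroup.toSylow_coe hS' hidx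
  have hPH : (P : Subgroup F).map F.subtype ≤ H := by
    rintro _ ⟨x, hx, rfl⟩
    rw [SetLike.mem_coe, hPcoe] at hx
    obtain ⟨y, _, rfl⟩ := hx
    exact y.2
  have hqF : q ∣ Nat.card F := hqd.trans (Subgroup.relIndex_dvd_card O F)
  have hPne : (P : Subgroup F) ≠ ⊥ := P.ne_bot_of_dvd_card hqF
  have hP'ne : (P : Subgroup F).map F.subtype ≠ ⊥ := by
    intro h
    exact hPne ((Subgroup.map_eq_bot_iff_of_injective _ F.subtype_injective).mp h)
  obtain ⟨x, hx, hx1⟩ : ∃ x ∈ (P : Subgroup F).map F.subtype, x ≠ (1 : G) := by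
    by_contra hcon
    push Not at hcon
    exact hP'ne ((Subgroup.eq_bot_iff_forall _).mpr hcon)
  have hfr := Sylow.normalizer_sup_eq_top P
  have hNle : Subgroup.normalizer (((P : Subgroup F).map F.subtype : Subgroup G) : Set G) ≤
      Subgroup.normalizer (H : Set G) := by
    intro n hn
    by_contra hnN
    have h1 : n * x * n⁻¹ ∈ (P : Subgroup F).map F.subtype :=
      (Subgroup.mem_normalizer_iff.mp hn x).mp hx
    exact hx1 (hTI n hnN x (hPH hx) (hPH h1))
  have hHN : H ≤ Subgroup.normalizer (H : Set G) := Subgroup.le_normalizer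
  rw [eq_top_iff, ← hfr]
  refine sup_le (hNle.trans le_sup_right) (hFle.trans (sup_le le_sup_left ?_))
  exact (inf_le_left.trans hHN).trans le_sup_right

end Cfsg.Agent.Lib.Helper25.TIH
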